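import Mathlib
import Cfsg.Agent.H691.T3.Defs

/-!
# The arithmetic of the degrees of `SL₃(q)`, `q ≡ 1 mod 3` (helper142, S4855)

`q = 3 k + 1`, `N = (q² + q + 1) / 3 = 3 k² + 3 k + 1`, `μ = k (k + 1)`, `d₀ = (q - 1)² (q + 1) / 3 = 9 k³ + 6 k²`.
-/

set_option autoImplicit false
set_option linter.unusedSectionVars false

namespace Cfsg.Agent.H142.T3

open Cfsg.Agent.H691.T3
open scoped Classical

/-- the value of `u` -/
theorem u_cases {k : ℕ} (hk : 0 < k) {d : ℕ} (hd : d ∈ DT (3 * k + 1)) {u : ℤ}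
    (hN : (3 * k ^ 2 + 3 * k + 1 : ℤ) ∣ 3 * u + d)
    (hu : u ^ 2 ≤ (3 * k ^ 2 + 3 * k + 1) * (k * (k + 1))) :
    (d = 27 * k ^ 3 + 18 * k ^ 2 ∧ u = -1) ∨ (d = 9 * k ^ 2 + 9 * k + 2 ∧ u = -(k * (k + 1))) ∨
      ((d = (3 * k + 1) ^ 3 ∨ d = 9 * k ^ 3 + 6 * k ^ 2 ∨ d = 1) ∧ u = k * (k + 1)) ∨
      (u = 0 ∧ d ≠ 27 * k ^ 3 + 18 * k ^ 2 ∧ d ≠ 9 * k ^ 2 + 9 * k + 2 ∧ d ≠ (3 * k + 1) ^ 3 ∧
        d ≠ 9 * k ^ 3 + 6 * k ^ 2 ∧ d ≠ 1) := by
  obtain ⟨μ, hμ⟩ : ∃ μ : ℤ, μ = k * (k + 1) := ⟨_, rfl⟩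
  have hk' : (1 : ℤ) ≤ k := by exact_mod_cast hk
  have hμ2 : 2 ≤ μ := by rw [hμ]; nlinarith
  have hNμ : (3 * k ^ 2 + 3 * k + 1 : ℤ) = 3 * μ + 1 := by rw [hμ]; ring
  rw [hNμ] at hN hu
  rw [← hμ] at hu ⊢
  have hu1 : u ≤ 2 * μ := by
    by_contra h
    have h1 : 2 * μ + 1 ≤ u := by omega
    nlinarith
  have hu2 : -(2 * μ) ≤ u := by
    by_contra h
    have h1 : 2 * μ + 1 ≤ -u := by omega
    nlinarith
  -- `N ∣ 3 u + r`
  have key : ∀ r t : ℤ, (d : ℤ) = r + (3 * μ + 1) * t → (3 * μ + 1) ∣ 3 * u + r := by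
    intro r t h
    rw [h] at hN
    have : 3 * u + r = 3 * u + (r + (3 * μ + 1) * t) - (3 * μ + 1) * t := by ring
    rw [this]
    exact dvd_sub hN (dvd_mul_right _ _)
  have hE : (∃ t : ℤ, (d : ℤ) = (3 * μ + 1) * t) → u = 0 := by
    rintro ⟨t, ht⟩
    obtain ⟨j, hj⟩ := key 0 t (by rw [ht]; ring)
    have h1 : (3 * μ + 1) * j = 3 * u := by rw [← hj]; ring
    have h2 : 3 ∣ j := by
      have : j = 3 * (u - μ * j) := by linear_combination (-1 : ℤ) * (-h1)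
      exact ⟨_, this⟩
    obtain ⟨i, rfl⟩ := h2
    have h3 : u = (3 * μ + 1) * i := by linarith
    have h4 : i = 0 := by
      by_contra h0
      rcases lt_or_gt_of_ne h0 with h | h
      · have : i ≤ -1 := by omega
        nlinarith
      · have : 1 ≤ i := by omega
        nlinarith
    rw [h3, h4, mul_zero]
  have hB : (∃ t : ℤ, (d : ℤ) = -1 + (3 * μ + 1) * t) → u = -μ := by
    rintro ⟨t, ht⟩
    obtain ⟨j, hj⟩ := key (-1) t ht
    have h1 : -1 ≤ j := by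
      by_contra h
      have : j ≤ -2 := by omega
      nlinarith
    have h2 : j ≤ 1 := by
      by_contra h
      have : 2 ≤ j := by omega
      nlinarith
    have h3 : j = -1 ∨ j = 0 ∨ j = 1 := by omega
    rcases h3 with rfl | rfl | rfl <;> omega
  have hC : (∃ t : ℤ, (d : ℤ) = 1 + (3 * μ + 1) * t) → u = μ := by
    rintro ⟨t, ht⟩
    obtain ⟨j, hj⟩ := key 1 t ht
    have h1 : -1 ≤ j := by
      by_contra h
      have : j ≤ -2 := by omega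
      nlinarith
    have h2 : j ≤ 1 := by
      by_contra h
      have : 2 ≤ j := by omega
      nlinarith
    have h3 : j = -1 ∨ j = 0 ∨ j = 1 := by omega
    rcases h3 with rfl | rfl | rfl <;> omega
  have hA : (∃ t : ℤ, (d : ℤ) = 3 + (3 * μ + 1) * t) → u = -1 := by
    rintro ⟨t, ht⟩
    obtain ⟨j, hj⟩ := key 3 t ht
    have h2 : 3 ∣ j := by
      have : j = 3 * (u + 1 - μ * j) := by linear_combination (-1 : ℤ) * hj
      exact ⟨_, this⟩
    obtain ⟨i, rfl⟩ := h2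
    have h3 : u + 1 = (3 * μ + 1) * i := by linarith
    have h4 : i = 0 := by
      by_contra h0
      rcases lt_or_gt_of_ne h0 with h | h
      · have : i ≤ -1 := by omega
        nlinarith
      · have : 1 ≤ i := by omega
        nlinarith
    rw [h4, mul_zero] at h3
    omega
  have hE' : (∃ t : ℤ, (d : ℤ) = (3 * μ + 1) * t) → (u = 0 ∧ d ≠ 27 * k ^ 3 + 18 * k ^ 2 ∧ d ≠ 9 * k ^ 2 + 9 * k + 2 ∧
      d ≠ (3 * k + 1) ^ 3 ∧ d ≠ 9 * k ^ 3 + 6 * k ^ 2 ∧ d ≠ 1) := by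
    intro ht
    have h0 := hE ht
    refine ⟨h0, ?_, ?_, ?_, ?_, ?_⟩
    · rintro rfl
      have := hA ⟨9 * k - 3, by push_cast; rw [hμ]; ring⟩
      omega
    · rintro rfl
      have := hB ⟨3, by push_cast; rw [hμ]; ring⟩
      omega
    · rintro rfl
      have := hC ⟨9 * k, by push_cast; rw [hμ]; ring⟩
      omega
    · rintro rfl
      have := hC ⟨3 * k - 1, by push_cast; rw [hμ]; ring⟩
      omega
    · rintro rfl
      have := hC ⟨0, by push_cast; ring⟩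
      omega
  have hq1 : 3 * k + 1 - 1 = 3 * k := by omega
  unfold DT at hd
  rw [Set.mem_ofPred_eq, hq1] at hd
  rcases hd with h | h | h | h | h | ⟨-, h | h⟩ | ⟨-, h⟩ | ⟨-, h | h⟩
  · right; right; left
    exact ⟨Or.inr (Or.inr h), hC ⟨0, by rw [h]; push_cast; ring⟩⟩
  · right; left
    have h' : d = 9 * k ^ 2 + 9 * k + 2 := by rw [h]; ring
    exact ⟨h', hB ⟨3, by rw [h']; push_cast; rw [hμ]; ring⟩⟩
  · right; right; left
    exact ⟨Or.inl h, hC ⟨9 * k, by rw [h]; push_cast; rw [hμ]; ring⟩⟩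
  · right; right; right
    refine hE' ⟨9 * k, ?_⟩
    have h' : (d : ℤ) + 1 = (3 * k + 1) ^ 3 := by exact_mod_cast h
    rw [hμ]
    linear_combination h'
  · left
    have h' : d = 27 * k ^ 3 + 18 * k ^ 2 := by rw [h]; ring
    exact ⟨h', hA ⟨9 * k - 3, by rw [h']; push_cast; rw [hμ]; ring⟩⟩
  · right; right; right
    refine hE' ⟨3, ?_⟩
    rw [h, hμ]; push_cast; ring
  · right; right; right
    refine hE' ⟨3 * (3 * k + 1), ?_⟩
    rw [h, hμ]; push_cast; ring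
  · right; right; right
    refine hE' ⟨3 * (3 * k + 2), ?_⟩
    rw [h, hμ]; push_cast; ring
  · right; right; right
    refine hE' ⟨3 * k + 2, ?_⟩
    have h' : 3 * (d : ℤ) = (3 * k + 1 + 1) * ((3 * k + 1) ^ 2 + (3 * k + 1) + 1) := by exact_mod_cast h
    have h'' : 3 * (d : ℤ) = 3 * ((3 * μ + 1) * (3 * k + 2)) := by rw [h', hμ]; ring
    linarith
  · right; right; left
    have h' : d = 9 * k ^ 3 + 6 * k ^ 2 := by
      have : 3 * d = 3 * (9 * k ^ 3 + 6 * k ^ 2) := by rw [h]; ring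
      omega
    exact ⟨Or.inr (Or.inl h'), hC ⟨3 * k - 1, by rw [h']; push_cast; rw [hμ]; ring⟩⟩

theorem fin_cases (b c e f : ℕ) (P d0 A : ℤ) (hd15 : 15 ≤ d0) (hA20 : 20 ≤ A) (hdA : 2 * A < 3 * d0 + 2)
    (hP : 2 * d0 ≤ P) (hs3 : b + c + e + f ≤ 3)
    (e5 : 9 * P + 3 * d0 - 3 * P * (b + c + e + f) = -A * b + (3 * d0 + A - 1) * c + d0 * e + f) :
    b + c + e + f = 3 ∧ ((f = 0 → 0 < e) ∧ (0 < f → e = 0)) := by
  have hb3 : b ≤ 3 := by omega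
  have hc3 : c ≤ 3 := by omega
  have he3 : e ≤ 3 := by omega
  have hf3 : f ≤ 3 := by omega
  interval_cases b <;> interval_cases c <;> try omega
  all_goals interval_cases e <;> try omega
  all_goals interval_cases f <;> try omega

theorem small_sum {a s μ : ℤ} (ha : 0 ≤ a) (h : a = μ * (3 * μ + 1 - μ * s)) (hμ : 2 ≤ μ) (hs : 4 ≤ s) : False := by
  have h1 : μ * 4 ≤ μ * s := mul_le_mul_of_nonneg_left hs (by omega)
  have h2 : 3 * μ + 1 - μ * s < 0 := by omega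
  have h3 : μ * (3 * μ + 1 - μ * s) < 0 := mul_neg_of_pos_of_neg (by omega) h2
  omega

set_option maxHeartbeats 1000000 in
/-- the equations for the numbers of characters -/
theorem counts {ι : Type*} (I : Finset ι) (deg : ι → ℕ) (m : ι → ℤ) {k : ℕ} (hk : 0 < k)
    (hdeg : ∀ χ ∈ I, deg χ ∈ DT (3 * k + 1))
    (hm : ∀ χ ∈ I, (3 * k ^ 2 + 3 * k + 1 : ℤ) ∣ m χ + deg χ ∧ 3 ∣ m χ)
    (h2 : ∑ χ ∈ I, m χ ^ 2 = 3 * (3 * k ^ 2 + 3 * k + 1) * ((3 * k ^ 2 + 3 * k + 1) - 1))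
    (h1 : ∑ χ ∈ I, m χ * deg χ = 0) :
    ((∃ χ ∈ I, deg χ = 1) ∨ ∃ χ ∈ I, deg χ = 9 * k ^ 3 + 6 * k ^ 2) ∧
      ¬ ((∃ χ ∈ I, deg χ = 1) ∧ ∃ χ ∈ I, deg χ = 9 * k ^ 3 + 6 * k ^ 2) := by
  obtain ⟨μ, hμ⟩ : ∃ μ : ℤ, μ = k * (k + 1) := ⟨_, rfl⟩
  have hk' : (1 : ℤ) ≤ k := by exact_mod_cast hk
  have hμ2 : 2 ≤ μ := by rw [hμ]; nlinarith
  have hNμ : (3 * k ^ 2 + 3 * k + 1 : ℤ) = 3 * μ + 1 := by rw [hμ]; ring
  have hex : ∀ χ : ι, ∃ u : ℤ, χ ∈ I → m χ = 3 * u := by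
    intro χ
    by_cases h : χ ∈ I
    · obtain ⟨u, hu⟩ := (hm χ h).2
      exact ⟨u, fun _ => hu⟩
    · exact ⟨0, fun h' => absurd h' h⟩
  choose u hu using hex
  have hsu : ∑ χ ∈ I, u χ ^ 2 = (3 * μ + 1) * μ := by
    have : ∑ χ ∈ I, m χ ^ 2 = 9 * ∑ χ ∈ I, u χ ^ 2 := by
      rw [Finset.mul_sum]
      refine Finset.sum_congr rfl fun χ hχ => ?_
      rw [hu χ hχ]; ring
    rw [this, hNμ] at h2
    linarith
  have hsd : ∑ χ ∈ I, u χ * deg χ = 0 := by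
    have : ∑ χ ∈ I, m χ * deg χ = 3 * ∑ χ ∈ I, u χ * deg χ := by
      rw [Finset.mul_sum]
      refine Finset.sum_congr rfl fun χ hχ => ?_
      rw [hu χ hχ]; ring
    rw [this] at h1
    omega
  have hcase : ∀ χ ∈ I, (deg χ = 27 * k ^ 3 + 18 * k ^ 2 ∧ u χ = -1) ∨ (deg χ = 9 * k ^ 2 + 9 * k + 2 ∧ u χ = -μ) ∨
      ((deg χ = (3 * k + 1) ^ 3 ∨ deg χ = 9 * k ^ 3 + 6 * k ^ 2 ∨ deg χ = 1) ∧ u χ = μ) ∨
      (u χ = 0 ∧ deg χ ≠ 27 * k ^ 3 + 18 * k ^ 2 ∧ deg χ ≠ 9 * k ^ 2 + 9 * k + 2 ∧ deg χ ≠ (3 * k + 1) ^ 3 ∧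
        deg χ ≠ 9 * k ^ 3 + 6 * k ^ 2 ∧ deg χ ≠ 1) := by
    intro χ hχ
    rw [hμ]
    refine u_cases hk (hdeg χ hχ) ?_ ?_
    · rw [← hu χ hχ]
      exact (hm χ hχ).1
    · rw [hNμ, ← hμ, ← hsu]
      exact Finset.single_le_sum (f := fun χ => u χ ^ 2) (fun i _ => sq_nonneg _) hχ
  -- the degrees
  obtain ⟨d0, hd0⟩ : ∃ d0 : ℕ, d0 = 9 * k ^ 3 + 6 * k ^ 2 := ⟨_, rfl⟩
  obtain ⟨A, hA⟩ : ∃ A : ℕ, A = 9 * k ^ 2 + 9 * k + 2 := ⟨_, rfl⟩
  have hC : (3 * k + 1) ^ 3 = 3 * d0 + A - 1 := by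
    have : (3 * k + 1) ^ 3 + 1 = 3 * d0 + A := by rw [hd0, hA]; ring
    omega
  have h3d : 27 * k ^ 3 + 18 * k ^ 2 = 3 * d0 := by rw [hd0]; ring
  have hd15 : 15 ≤ d0 := by
    rw [hd0]
    have h1 : 1 ≤ k ^ 2 := Nat.one_le_pow _ _ hk
    have h2 : 1 ≤ k ^ 3 := Nat.one_le_pow _ _ hk
    omega
  have hA20 : 20 ≤ A := by
    rw [hA]
    have h1 : 1 ≤ k ^ 2 := Nat.one_le_pow _ _ hk
    omega
  have hdA : 2 * A < 3 * d0 + 2 ∧ d0 ≠ A := by
    rcases Nat.lt_or_ge 1 k with h | h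
    · have h2 : 2 * k ^ 2 ≤ k ^ 3 := by
        rw [pow_succ k 2, mul_comm]
        exact Nat.mul_le_mul_left _ h
      have h3 : 2 * k ≤ k ^ 2 := by rw [pow_two]; exact Nat.mul_le_mul_right _ h
      constructor
      · rw [hd0, hA]; omega
      · rw [hd0, hA]; omega
    · have h1 : k = 1 := by omega
      rw [hd0, hA, h1]
      norm_num
  rw [h3d, ← hA, ← hd0, hC] at hcase
  rw [← hd0]
  -- the numbers
  obtain ⟨a, ha'⟩ : ∃ a, a = (I.filter fun χ => deg χ = 3 * d0).card := ⟨_, rfl⟩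
  obtain ⟨b, hb'⟩ : ∃ b, b = (I.filter fun χ => deg χ = A).card := ⟨_, rfl⟩
  obtain ⟨c, hc'⟩ : ∃ c, c = (I.filter fun χ => deg χ = 3 * d0 + A - 1).card := ⟨_, rfl⟩
  obtain ⟨e, he'⟩ : ∃ e, e = (I.filter fun χ => deg χ = d0).card := ⟨_, rfl⟩
  obtain ⟨f, hf'⟩ : ∃ f, f = (I.filter fun χ => deg χ = 1).card := ⟨_, rfl⟩
  have ha : ∑ χ ∈ I, (if deg χ = 3 * d0 then (1 : ℤ) else 0) = a := by rw [Finset.sum_boole, ha']
  have hb : ∑ χ ∈ I, (if deg χ = A then (1 : ℤ) else 0) = b := by rw [Finset.sum_boole, hb']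
  have hc : ∑ χ ∈ I, (if deg χ = 3 * d0 + A - 1 then (1 : ℤ) else 0) = c := by rw [Finset.sum_boole, hc']
  have he : ∑ χ ∈ I, (if deg χ = d0 then (1 : ℤ) else 0) = e := by rw [Finset.sum_boole, he']
  have hf : ∑ χ ∈ I, (if deg χ = 1 then (1 : ℤ) else 0) = f := by rw [Finset.sum_boole, hf']
  have e1 : (a : ℤ) + μ ^ 2 * (b + c + e + f) = (3 * μ + 1) * μ := by
    rw [← hsu, ← ha, ← hb, ← hc, ← he, ← hf, ← Finset.sum_add_distrib, ← Finset.sum_add_distrib,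
      ← Finset.sum_add_distrib, Finset.mul_sum, ← Finset.sum_add_distrib]
    refine Finset.sum_congr rfl fun χ hχ => ?_
    rcases hcase χ hχ with ⟨h, h'⟩ | ⟨h, h'⟩ | ⟨h | h | h, h'⟩ | ⟨h', n1, n2, n3, n4, n5⟩
    · rw [h', if_pos h, if_neg (by omega), if_neg (by omega), if_neg (by omega), if_neg (by omega)]; ring
    · rw [h', if_neg (by omega), if_pos h, if_neg (by omega), if_neg (by omega), if_neg (by omega)]; ring
    · rw [h', if_neg (by omega), if_neg (by omega), if_pos h, if_neg (by omega), if_neg (by omega)]; ring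
    · rw [h', if_neg (by omega), if_neg (by omega), if_neg (by omega), if_pos h, if_neg (by omega)]; ring
    · rw [h', if_neg (by omega), if_neg (by omega), if_neg (by omega), if_neg (by omega), if_pos h]; ring
    · rw [h', if_neg n1, if_neg n2, if_neg n3, if_neg n4, if_neg n5]; ring
  have e2 : -(3 * d0 : ℤ) * a + μ * (-(A : ℤ) * b + (3 * d0 + A - 1) * c + d0 * e + f) = 0 := by
    rw [← hsd, ← ha, ← hb, ← hc, ← he, ← hf, Finset.mul_sum, Finset.mul_sum, Finset.mul_sum, Finset.mul_sum,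
      ← Finset.sum_add_distrib, ← Finset.sum_add_distrib, ← Finset.sum_add_distrib, Finset.mul_sum,
      ← Finset.sum_add_distrib]
    refine Finset.sum_congr rfl fun χ hχ => ?_
    rcases hcase χ hχ with ⟨h, h'⟩ | ⟨h, h'⟩ | ⟨h | h | h, h'⟩ | ⟨h', n1, n2, n3, n4, n5⟩
    · rw [h', if_pos h, if_neg (by omega), if_neg (by omega), if_neg (by omega), if_neg (by omega), h]
      push_cast; ring
    · rw [h', if_neg (by omega), if_pos h, if_neg (by omega), if_neg (by omega), if_neg (by omega), h]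
      ring
    · rw [h', if_neg (by omega), if_neg (by omega), if_pos h, if_neg (by omega), if_neg (by omega), h]
      have : ((3 * d0 + A - 1 : ℕ) : ℤ) = 3 * d0 + A - 1 := by
        rw [Nat.cast_sub (by omega)]; push_cast; ring
      rw [this]; ring
    · rw [h', if_neg (by omega), if_neg (by omega), if_neg (by omega), if_pos h, if_neg (by omega), h]
      ring
    · rw [h', if_neg (by omega), if_neg (by omega), if_neg (by omega), if_neg (by omega), if_pos h, h]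
      push_cast; ring
    · rw [h', if_neg n1, if_neg n2, if_neg n3, if_neg n4, if_neg n5]; ring
  -- elimination of `a`
  have hμ0 : μ ≠ 0 := by omega
  have e3 : (a : ℤ) = μ * (3 * μ + 1 - μ * (b + c + e + f)) := by linear_combination e1
  have e4 : 3 * (d0 : ℤ) * (3 * μ + 1 - μ * (b + c + e + f)) =
      -(A : ℤ) * b + (3 * d0 + A - 1) * c + d0 * e + f := by
    apply mul_left_cancel₀ hμ0
    rw [e3] at e2
    linear_combination (-1 : ℤ) * e2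
  have hs3 : b + c + e + f ≤ 3 := by
    by_contra hcon
    have h4 : (4 : ℤ) ≤ b + c + e + f := by
      have : 4 ≤ b + c + e + f := by omega
      exact_mod_cast this
    exact small_sum (Int.natCast_nonneg a) e3 hμ2 h4
  have hP : (2 : ℤ) * d0 ≤ d0 * μ := by
    rw [mul_comm]
    exact mul_le_mul_of_nonneg_left hμ2 (Int.natCast_nonneg d0)
  have hmain : b + c + e + f = 3 ∧ ((f = 0 → 0 < e) ∧ (0 < f → e = 0)) := by
    obtain ⟨P, hP'⟩ : ∃ P : ℤ, P = d0 * μ := ⟨_, rfl⟩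
    rw [← hP'] at hP
    have e5 : 9 * P + 3 * d0 - 3 * P * (b + c + e + f) = -(A : ℤ) * b + (3 * d0 + A - 1) * c + d0 * e + f := by
      rw [← e4, hP']; ring
    refine fin_cases b c e f P d0 A (by exact_mod_cast hd15) (by exact_mod_cast hA20) ?_ hP hs3 e5
    exact_mod_cast hdA.1
  obtain ⟨hs, hm1, hm2⟩ := hmain
  have hef : ∀ d : ℕ, 0 < (I.filter fun χ => deg χ = d).card ↔ ∃ χ ∈ I, deg χ = d := by
    intro d
    rw [Finset.card_pos]
    constructor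
    · rintro ⟨χ, hχ⟩
      exact ⟨χ, (Finset.mem_filter.1 hχ).1, (Finset.mem_filter.1 hχ).2⟩
    · rintro ⟨χ, h, h'⟩
      exact ⟨χ, Finset.mem_filter.2 ⟨h, h'⟩⟩
  constructor
  · rcases Nat.eq_zero_or_pos f with h | h
    · exact Or.inr ((hef d0).1 (he' ▸ hm1 h))
    · exact Or.inl ((hef 1).1 (hf' ▸ h))
  · rintro ⟨h, h'⟩
    have h5 := hm2 (hf' ▸ (hef 1).2 h)
    have h6 : 0 < e := he' ▸ (hef d0).2 h'
    omega

end Cfsg.Agent.H142.T3
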