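import Mathlib
import Cfsg.Agent.H686.CharKit
import Cfsg.Agent.Blocks.CentralInvolutionCount
import Cfsg.Agent.Characters.GaloisBasic

/-!
# Column sums over a TI-subgroup modulo the centre (helper142, S4855)

`Dat T z N` : `T` is a subgroup of order `N` prime to 3, `z` is central of order 3, the nonidentity elements of `T` have
centralizers of order `3 N` and exactly three conjugates in `T`. For every `ω` with `ω³ = 1` let `I ω` be the set of the
irreducible characters with `χ z = ω χ 1`, and `m χ = ∑ χ t`, `t ∈ T`, `t ≠ 1`. Then (`Dat.main`) `m χ` is an integer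
divisible by 3, `N ∣ m χ + χ 1`, `∑ (m χ)² = 3 N (N - 1)` and `∑ m χ · χ 1 = 0` (sums over `I ω`).
-/

set_option autoImplicit false
set_option linter.unusedSectionVars false

namespace Cfsg.Agent.H142.T3

open Cfsg Cfsg.Agent.Characters Cfsg.Agent.H686.CharKit
open scoped ComplexConjugate Classical

universe u

/-- The situation. -/
structure Dat {G : Type u} [Group G] (T : Subgroup G) (z : G) (N : ℕ) : Prop where
  card : Nat.card T = N
  central : ∀ g : G, g * z = z * g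
  z3 : z ^ 3 = 1
  cop : ¬ 3 ∣ N
  cent : ∀ t ∈ T, t ≠ 1 → Nat.card (Subgroup.centralizer ({t} : Set G)) = 3 * N
  cls : ∀ t ∈ T, t ≠ 1 → Nat.card {s : G // s ∈ T ∧ IsConj t s} = 3

section

variable {G : Type u} [Group G] [Finite G]

/-- the sum over the nonidentity elements of `T` -/
noncomputable def msum (T : Subgroup G) [Fintype T] (χ : G → ℂ) : ℂ := ∑ t ∈ Finset.univ.filter (fun t : T => t ≠ 1), χ t

theorem msum_add (T : Subgroup G) [Fintype T] (χ : G → ℂ) : msum T χ + χ 1 = ∑ t : T, χ t := by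
  have h := Finset.sum_filter_add_sum_filter_not (Finset.univ : Finset T) (fun t : T => t ≠ 1) (fun t => χ (t : G))
  rw [← h]
  have h1 : (Finset.univ.filter fun t : T => ¬ t ≠ 1) = {1} := by
    ext t
    simp
  rw [h1, Finset.sum_singleton]
  rfl

/-- `m χ = N c - χ 1` -/
theorem exists_msum (T : Subgroup G) [Fintype T] {χ : G → ℂ} (hχ : IsCharacter G χ) :
    ∃ c : ℕ, msum T χ = (Nat.card T : ℂ) * c - χ 1 := by
  obtain ⟨c, hc⟩ := Core.classInner_isNat (Core.isCharacter_comp T.subtype hχ) (Core.isCharacter_one (G := T))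
  refine ⟨c, ?_⟩
  have hT : (Nat.card T : ℂ) ≠ 0 := by exact_mod_cast Nat.card_pos.ne'
  have h1 : classInner (χ ∘ T.subtype) 1 = (Nat.card T : ℂ)⁻¹ * ∑ t : T, χ t := by
    show (Nat.card T : ℂ)⁻¹ * ∑ t : T, χ t * conj (1 : ℂ) = _
    simp
  rw [eq_sub_iff_add_eq, msum_add, ← hc, h1, mul_inv_cancel_left₀ hT]

theorem conj_msum (T : Subgroup G) [Fintype T] {χ : G → ℂ} (hχ : IsCharacter G χ) : conj (msum T χ) = msum T χ := by
  obtain ⟨c, hc⟩ := exists_msum T hχ
  obtain ⟨d, hd⟩ := Core.isCharacter_apply_one hχ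
  rw [hc, hd]
  simp

namespace Dat

variable {T : Subgroup G} {z : G} {N : ℕ} (D : Dat T z N)

include D

theorem pow_eq_one {t : G} (ht : t ∈ T) : t ^ N = 1 := by
  have h := pow_card_eq_one' (x := (⟨t, ht⟩ : T))
  rw [D.card] at h
  exact congrArg Subtype.val h

theorem zpow_eq_one {j : ℕ} (hj : j < 3) (h : (z ^ j) ^ N = 1) (hz : z ≠ 1) : j = 0 := by
  by_contra hj0
  have h3 : orderOf z = 3 := orderOf_eq_prime D.z3 hz
  rw [← pow_mul] at h
  have h1 := orderOf_dvd_of_pow_eq_one h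
  rw [h3] at h1
  rcases (Nat.Prime.dvd_mul Nat.prime_three).1 h1 with h2 | h2
  · have := Nat.le_of_dvd (by omega) h2
    omega
  · exact D.cop h2

/-- `z^j g` is conjugate to `h` only if `j = 0` -/
theorem eq_zero_of_isConj (hz : z ≠ 1) {g h : G} (hg : g ∈ T) (hh : h ∈ T) {j : ℕ} (hj : j < 3)
    (hc : IsConj (z ^ j * g) h) : j = 0 := by
  apply D.zpow_eq_one hj ?_ hz
  have h1 : (z ^ j * g) ^ N = 1 := by
    obtain ⟨x, hx⟩ := isConj_iff.1 hc
    have h2 : x * (z ^ j * g) ^ N * x⁻¹ = 1 := by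
      rw [← conj_pow, hx, D.pow_eq_one hh]
    have h3 : (z ^ j * g) ^ N = x⁻¹ * (x * (z ^ j * g) ^ N * x⁻¹) * x := by group
    rw [h3, h2]; group
  have hcomm : Commute (z ^ j) g := Commute.pow_left (D.central g).symm j
  rw [hcomm.mul_pow, D.pow_eq_one hg, mul_one] at h1
  exact h1

/-- the scalar of the central element -/
theorem exists_scalar {χ : G → ℂ} (hχ : IsIrrCharacter G χ) :
    ∃ c : ℂ, c ^ 3 = 1 ∧ χ z = c * χ 1 ∧ ∀ g, χ (z * g) = c * χ g := by
  have h1 := Core.isIrr_apply_one_ne_zero hχ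
  have h2 : ∀ g, χ (z * g) = (χ z / χ 1) * χ g := by
    intro g
    have h := Blocks.CentralInvolutionCount.apply_central_mul hχ D.central g
    field_simp
    rw [h]
  refine ⟨χ z / χ 1, ?_, by field_simp, h2⟩
  have h3 : χ (z ^ 3) = (χ z / χ 1) ^ 3 * χ 1 := by
    have e : z ^ 3 = z * (z * (z * 1)) := by rw [mul_one, pow_succ, pow_two, mul_assoc]
    rw [e, h2, h2, h2]; ring
  rw [D.z3] at h3
  have h4 : ((χ z / χ 1) ^ 3 - 1) * χ 1 = 0 := by
    rw [sub_mul, one_mul, ← h3, sub_self]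
  rcases mul_eq_zero.1 h4 with h5 | h5
  · exact sub_eq_zero.1 h5
  · exact absurd h5 h1

end Dat

/-- The irreducible characters over the central character `z ↦ ω`. -/
noncomputable def Ix [Fintype (IrrCharacter G)] (z : G) (ω : ℂ) : Finset (IrrCharacter G) :=
  Finset.univ.filter fun χ => (χ : G → ℂ) z = ω * (χ : G → ℂ) 1

theorem mem_Ix [Fintype (IrrCharacter G)] {z : G} {ω : ℂ} {χ : IrrCharacter G} :
    χ ∈ Ix z ω ↔ (χ : G → ℂ) z = ω * (χ : G → ℂ) 1 := by
  unfold Ix
  rw [Finset.mem_filter]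
  exact ⟨fun h => h.2, fun h => ⟨Finset.mem_univ _, h⟩⟩

namespace Dat

variable {T : Subgroup G} {z : G} {N : ℕ} (D : Dat T z N)

include D

/-- the projection -/
theorem sum_proj [Fintype (IrrCharacter G)] {ω : ℂ} (hω : ω ^ 3 = 1) (χ : IrrCharacter G) (g : G) :
    ∑ j ∈ Finset.range 3, (ω ^ 2) ^ j * (χ : G → ℂ) (z ^ j * g) = if χ ∈ Ix z ω then 3 * (χ : G → ℂ) g else 0 := by
  obtain ⟨c, hc3, hc1, hc⟩ := D.exists_scalar χ.2
  have h1 := Core.isIrr_apply_one_ne_zero χ.2
  have hp : ∀ j : ℕ, (χ : G → ℂ) (z ^ j * g) = c ^ j * (χ : G → ℂ) g := by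
    intro j
    induction j with
    | zero => rw [pow_zero, pow_zero, one_mul, one_mul]
    | succ j ih => rw [pow_succ', mul_assoc, hc, ih, pow_succ']; ring
  have h2 : ∑ j ∈ Finset.range 3, (ω ^ 2) ^ j * (χ : G → ℂ) (z ^ j * g) =
      (1 + ω ^ 2 * c + (ω ^ 2 * c) ^ 2) * (χ : G → ℂ) g := by
    rw [Finset.sum_range_succ, Finset.sum_range_succ, Finset.sum_range_one, hp, hp, hp]
    ring
  rw [h2]
  by_cases hI : χ ∈ Ix z ω
  · rw [if_pos hI]
    rw [mem_Ix, hc1] at hI
    have h3 : c = ω := mul_right_cancel₀ h1 hI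
    have h4 : ω ^ 2 * c = 1 := by rw [h3, ← hω]; ring
    rw [h4]; ring
  · rw [if_neg hI]
    have h3 : ω ^ 2 * c ≠ 1 := by
      intro h
      apply hI
      rw [mem_Ix, hc1]
      have h4 : c = ω := by
        calc c = ω ^ 3 * c := by rw [hω, one_mul]
          _ = ω * (ω ^ 2 * c) := by ring
          _ = ω := by rw [h, mul_one]
      rw [h4]
    have h4 : (ω ^ 2 * c) ^ 3 = 1 := by
      rw [mul_pow, hc3, ← pow_mul, mul_comm 2 3, pow_mul, hω, one_pow, one_mul]
    have h5 : (ω ^ 2 * c - 1) * (1 + ω ^ 2 * c + (ω ^ 2 * c) ^ 2) = 0 := by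
      have : (ω ^ 2 * c - 1) * (1 + ω ^ 2 * c + (ω ^ 2 * c) ^ 2) = (ω ^ 2 * c) ^ 3 - 1 := by ring
      rw [this, h4, sub_self]
    rcases mul_eq_zero.1 h5 with h6 | h6
    · exact absurd (sub_eq_zero.1 h6) h3
    · rw [h6, zero_mul]

/-- **Column orthogonality over a central character.** -/
theorem orth [Fintype (IrrCharacter G)] (hz : z ≠ 1) {ω : ℂ} (hω : ω ^ 3 = 1) {g h : G} (hg : g ∈ T) (hh : h ∈ T)
    (h1 : h ≠ 1) :
    ∑ χ ∈ Ix z ω, (χ : G → ℂ) g * conj ((χ : G → ℂ) h) = if IsConj g h then (N : ℂ) else 0 := by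
  have e1 : ∑ χ ∈ Ix z ω, (3 : ℂ) * ((χ : G → ℂ) g * conj ((χ : G → ℂ) h)) =
      ∑ j ∈ Finset.range 3, (ω ^ 2) ^ j * ∑ χ : IrrCharacter G, (χ : G → ℂ) (z ^ j * g) * conj ((χ : G → ℂ) h) := by
    calc ∑ χ ∈ Ix z ω, (3 : ℂ) * ((χ : G → ℂ) g * conj ((χ : G → ℂ) h)) =
        ∑ χ : IrrCharacter G, (if χ ∈ Ix z ω then 3 * (χ : G → ℂ) g else 0) * conj ((χ : G → ℂ) h) := by
          rw [← Finset.sum_filter_add_sum_filter_not (Finset.univ : Finset (IrrCharacter G)) (fun χ => χ ∈ Ix z ω)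
            (fun χ => (if χ ∈ Ix z ω then 3 * (χ : G → ℂ) g else 0) * conj ((χ : G → ℂ) h))]
          have e2 : ∑ χ ∈ Finset.univ.filter (fun χ => ¬ χ ∈ Ix z ω),
              (if χ ∈ Ix z ω then 3 * (χ : G → ℂ) g else 0) * conj ((χ : G → ℂ) h) = 0 := by
            refine Finset.sum_eq_zero fun χ hχ => ?_
            rw [if_neg (Finset.mem_filter.1 hχ).2, zero_mul]
          rw [e2, add_zero]
          have e3 : Finset.univ.filter (fun χ : IrrCharacter G => χ ∈ Ix z ω) = Ix z ω := by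
            ext χ; simp
          rw [e3]
          refine Finset.sum_congr rfl fun χ hχ => ?_
          rw [if_pos hχ]; ring
      _ = ∑ χ : IrrCharacter G, (∑ j ∈ Finset.range 3, (ω ^ 2) ^ j * (χ : G → ℂ) (z ^ j * g)) *
            conj ((χ : G → ℂ) h) := by
          refine Finset.sum_congr rfl fun χ _ => ?_
          rw [D.sum_proj hω]
      _ = _ := by
          simp only [Finset.sum_mul, Finset.mul_sum]
          rw [Finset.sum_comm]
          refine Finset.sum_congr rfl fun j _ => Finset.sum_congr rfl fun χ _ => ?_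
          ring
  have e2 : ∑ j ∈ Finset.range 3, (ω ^ 2) ^ j * ∑ χ : IrrCharacter G, (χ : G → ℂ) (z ^ j * g) * conj ((χ : G → ℂ) h)
      = if IsConj g h then (3 * N : ℂ) else 0 := by
    rw [Finset.sum_eq_single 0]
    · rw [pow_zero, one_mul, pow_zero, one_mul, col_orth, D.cent h hh h1]
      push_cast
      rfl
    · intro j hj hj0
      rw [col_orth, if_neg, mul_zero]
      intro hc
      exact hj0 (D.eq_zero_of_isConj hz hg hh (Finset.mem_range.1 hj) hc)
    · intro h0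
      exact absurd (Finset.mem_range.2 (by norm_num)) h0
  rw [← Finset.mul_sum] at e1
  rw [e2] at e1
  have h3 : (3 : ℂ) ≠ 0 := by norm_num
  refine mul_left_cancel₀ h3 (e1.trans ?_)
  split_ifs
  · rfl
  · rw [mul_zero]

/-- the number of the conjugates -/
theorem card_fiber [Fintype T] {t : T} (ht : t ≠ 1) :
    ((Finset.univ.filter fun s : T => s ≠ 1).filter fun s : T => ConjClasses.mk (s : G) = ConjClasses.mk (t : G)).card = 3 := by
  have ht' : (t : G) ≠ 1 := fun h => ht (Subtype.ext h)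
  rw [← D.cls t t.2 ht', ← Fintype.card_coe, ← Nat.card_eq_fintype_card]
  refine Nat.card_congr ⟨fun s => ⟨(s.1 : G), s.1.2, ?_⟩, fun s => ⟨⟨s.1, s.2.1⟩, ?_⟩, fun s => rfl, fun s => rfl⟩
  · have h := (Finset.mem_filter.1 s.2).2
    exact (ConjClasses.mk_eq_mk_iff_isConj.1 h).symm
  · rw [Finset.mem_filter, Finset.mem_filter]
    refine ⟨⟨Finset.mem_univ _, ?_⟩, ConjClasses.mk_eq_mk_iff_isConj.2 s.2.2.symm⟩
    intro h
    apply ht'
    have h1 : s.1 = 1 := congrArg Subtype.val h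
    have h2 := s.2.2
    rw [h1, isConj_comm] at h2
    exact isConj_one_right.1 h2

/-- `m χ` is divisible by 3 -/
theorem three_dvd [Fintype T] {χ : G → ℂ} (hχ : IsCharacter G χ) {m : ℤ} (hm : msum T χ = m) : 3 ∣ m := by
  let f : T → ConjClasses G := fun t => ConjClasses.mk (t : G)
  have hcf := Core.isCharacter_isClassFunction hχ
  have h1 : msum T χ = ∑ t ∈ Finset.univ.filter (fun t : T => t ≠ 1), Core.toClass G χ (f t) := by
    refine Finset.sum_congr rfl fun t _ => ?_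
    rw [Core.toClass_mk hcf]
  rw [Finset.sum_comp (fun c => Core.toClass G χ c) f] at h1
  have h2 : ∑ c ∈ (Finset.univ.filter fun t : T => t ≠ 1).image f,
      ((Finset.univ.filter fun t : T => t ≠ 1).filter fun s : T => f s = c).card • Core.toClass G χ c =
      3 * ∑ c ∈ (Finset.univ.filter fun t : T => t ≠ 1).image f, Core.toClass G χ c := by
    rw [Finset.mul_sum]
    refine Finset.sum_congr rfl fun c hc => ?_
    obtain ⟨t, ht, rfl⟩ := Finset.mem_image.1 hc
    rw [D.card_fiber (Finset.mem_filter.1 ht).2, nsmul_eq_mul]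
    norm_num
  rw [h2, hm] at h1
  have h3 : IsIntegral ℤ (∑ c ∈ (Finset.univ.filter fun t : T => t ≠ 1).image f, Core.toClass G χ c) :=
    IsIntegral.sum _ fun c _ => GaloisBasic.isIntegral_apply hχ _
  obtain ⟨k, hk⟩ := GaloisBasic.exists_int_of_isIntegral h3 ⟨(m : ℚ) / 3, by push_cast; rw [h1]; field_simp⟩
  rw [hk] at h1
  exact ⟨k, by exact_mod_cast h1⟩

/-- **The numbers `m χ`.** -/
theorem main [Fintype (IrrCharacter G)] (hz : z ≠ 1) {ω : ℂ} (hω : ω ^ 3 = 1) :
    ∃ m : IrrCharacter G → ℤ, (∀ χ, (N : ℤ) ∣ m χ + charDegree (χ : G → ℂ) ∧ 3 ∣ m χ) ∧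
      ∑ χ ∈ Ix z ω, m χ ^ 2 = 3 * N * (N - 1) ∧ ∑ χ ∈ Ix z ω, m χ * charDegree (χ : G → ℂ) = 0 := by
  have : Fintype T := Fintype.ofFinite T
  have hex : ∀ χ : IrrCharacter G, ∃ m : ℤ, msum T (χ : G → ℂ) = m ∧ (N : ℤ) ∣ m + charDegree (χ : G → ℂ) := by
    intro χ
    obtain ⟨c, hc⟩ := exists_msum T (Core.isIrr_isCharacter χ.2)
    refine ⟨(N : ℤ) * c - charDegree (χ : G → ℂ), ?_, ⟨c, by ring⟩⟩
    rw [hc, D.card]
    push_cast
    rw [charDegree_irr]
  choose m hm hN using hex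
  have hc : Nat.card T = N := D.card
  have hcard : (Finset.univ.filter fun t : T => t ≠ 1).card + 1 = N := by
    have h1 : (Finset.univ.filter fun t : T => t ≠ 1) = Finset.univ.erase 1 := by ext t; simp
    rw [h1, Finset.card_erase_of_mem (Finset.mem_univ _), Finset.card_univ, ← Nat.card_eq_fintype_card, hc]
    have : 0 < N := hc ▸ Nat.card_pos
    omega
  have hsum : ∀ g ∈ T, ∑ χ ∈ Ix z ω, (χ : G → ℂ) g * (m χ : ℂ) =
      ∑ t ∈ Finset.univ.filter (fun t : T => t ≠ 1), if IsConj g (t : G) then (N : ℂ) else 0 := by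
    intro g hg
    have h1 : ∀ χ ∈ Ix z ω, (χ : G → ℂ) g * (m χ : ℂ) =
        ∑ t ∈ Finset.univ.filter (fun t : T => t ≠ 1), (χ : G → ℂ) g * conj ((χ : G → ℂ) (t : G)) := by
      intro χ _
      rw [← Finset.mul_sum, ← hm χ, ← conj_msum T (Core.isIrr_isCharacter χ.2)]
      unfold msum
      rw [map_sum]
    rw [Finset.sum_congr rfl h1, Finset.sum_comm]
    refine Finset.sum_congr rfl fun t ht => ?_
    exact D.orth hz hω hg t.2 fun h => (Finset.mem_filter.1 ht).2 (Subtype.ext h)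
  refine ⟨m, fun χ => ⟨hN χ, D.three_dvd (Core.isIrr_isCharacter χ.2) (hm χ)⟩, ?_, ?_⟩
  · have h1 : ∑ χ ∈ Ix z ω, ((m χ : ℂ)) ^ 2 = 3 * N * (N - 1) := by
      have h2 : ∀ χ ∈ Ix z ω, ((m χ : ℂ)) ^ 2 =
          ∑ g ∈ Finset.univ.filter (fun t : T => t ≠ 1), (χ : G → ℂ) (g : G) * (m χ : ℂ) := by
        intro χ _
        rw [← Finset.sum_mul, pow_two]
        congr 1
        exact (hm χ).symm
      rw [Finset.sum_congr rfl h2, Finset.sum_comm]
      have h3 : ∀ g ∈ Finset.univ.filter (fun t : T => t ≠ 1),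
          ∑ χ ∈ Ix z ω, (χ : G → ℂ) (g : G) * (m χ : ℂ) = 3 * N := by
        intro g hg
        rw [hsum g g.2, ← Finset.sum_filter, Finset.sum_const]
        have h4 : ((Finset.univ.filter fun t : T => t ≠ 1).filter fun t : T => IsConj (g : G) (t : G)) =
            (Finset.univ.filter fun t : T => t ≠ 1).filter fun s : T =>
              ConjClasses.mk (s : G) = ConjClasses.mk (g : G) := by
          refine Finset.filter_congr fun t _ => ?_
          rw [ConjClasses.mk_eq_mk_iff_isConj, isConj_comm]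
        rw [h4, D.card_fiber (Finset.mem_filter.1 hg).2, nsmul_eq_mul]
        norm_num
      rw [Finset.sum_congr rfl h3, Finset.sum_const, nsmul_eq_mul]
      have h5 : ((Finset.univ.filter fun t : T => t ≠ 1).card : ℂ) = N - 1 := by
        rw [← hcard]; push_cast; ring
      rw [h5]; ring
    exact_mod_cast h1
  · have h1 := hsum 1 T.one_mem
    have h2 : ∑ t ∈ Finset.univ.filter (fun t : T => t ≠ 1), (if IsConj (1 : G) (t : G) then (N : ℂ) else 0) = 0 := by
      refine Finset.sum_eq_zero fun t ht => ?_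
      rw [if_neg]
      intro h
      apply (Finset.mem_filter.1 ht).2
      rw [isConj_comm] at h
      exact Subtype.ext (isConj_one_left.1 h)
    rw [h2] at h1
    have h3 : ∑ χ ∈ Ix z ω, (m χ : ℂ) * (charDegree (χ : G → ℂ) : ℂ) = 0 := by
      rw [← h1]
      refine Finset.sum_congr rfl fun χ _ => ?_
      rw [charDegree_irr, mul_comm]
    exact_mod_cast h3

end Dat

end

end Cfsg.Agent.H142.T3
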