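import Mathlib
import Cfsg.Agent.H142.T3.Col

/-!
# The Singer torus of `SL₃(F)` (helper142, S4855)

`exists_dat` : for `q = |F| ≡ 1 mod 3`, `q² + q + 1 = 3 N`, the group `SL₃(F)` has a subgroup `T` of order `N` and a central
element `z` of order 3 with `Dat T z N`.
-/

set_option autoImplicit false
set_option linter.unusedSectionVars false

namespace Cfsg.Agent.H142.T3

open Matrix Polynomial Module

universe u

theorem div_eq {q : ℕ} (hq : 1 < q) : (q ^ 3 - 1) / (q - 1) = q ^ 2 + q + 1 := by
  obtain ⟨k, rfl⟩ : ∃ k, q = k + 2 := ⟨q - 2, by omega⟩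
  have e : (k + 2) ^ 3 - 1 = ((k + 2) ^ 2 + (k + 2) + 1) * (k + 2 - 1) := by
    have h2 : k + 2 - 1 = k + 1 := by omega
    rw [h2]
    have h3 : ((k + 2) ^ 2 + (k + 2) + 1) * (k + 1) + 1 = (k + 2) ^ 3 := by ring
    omega
  rw [e]
  exact Nat.mul_div_cancel _ (by omega)

section Alg

variable {F E : Type*} [Field F] [Field E] [Algebra F E] [FiniteDimensional F E] (b : Basis (Fin 3) F E)

/-- the regular representation -/
noncomputable abbrev Mx : E →ₐ[F] Matrix (Fin 3) (Fin 3) F := Algebra.leftMulMatrix b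

theorem Mx_injective : Function.Injective (Mx b) := Algebra.leftMulMatrix_injective b

include b in
theorem finrank_E : finrank F E = 3 := by
  rw [finrank_eq_card_basis b, Fintype.card_fin]

include b in
theorem top_of_mem {x : E} (hx : x ∉ Set.range (algebraMap F E)) {S : Subalgebra F E} (hS : x ∈ S) : S = ⊤ := by
  have := Subalgebra.isSimpleOrder_of_finrank_prime F E (by rw [finrank_E b]; exact Nat.prime_three)
  rcases eq_bot_or_eq_top S with h | h
  · exfalso
    rw [h, Algebra.mem_bot] at hS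
    exact hx hS
  · exact h

/-- **The centralizer of a nonscalar element.** -/
theorem mem_of_comm {x : E} (hx : x ∉ Set.range (algebraMap F E)) {g : Matrix (Fin 3) (Fin 3) F}
    (h : g * Mx b x = Mx b x * g) : ∃ e : E, g = Mx b e := by
  have h1 : ∀ y : E, g * Mx b y = Mx b y * g := by
    let S : Subalgebra F E := (Subalgebra.centralizer F {g}).comap (Mx b)
    have hS : S = ⊤ := by
      apply top_of_mem b hx
      rw [Subalgebra.mem_comap, Subalgebra.mem_centralizer_iff]
      rintro _ rfl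
      exact h
    intro y
    have hy : y ∈ S := by rw [hS]; trivial
    rw [Subalgebra.mem_comap, Subalgebra.mem_centralizer_iff] at hy
    exact hy g rfl
  let φ : E →ₗ[F] E := Matrix.toLin b b g
  have hφ : ∀ y v : E, φ (y * v) = y * φ v := by
    intro y v
    have h2 := congrArg (Matrix.toLin b b) (h1 y)
    rw [Matrix.toLin_mul b b b, Matrix.toLin_mul b b b, Algebra.leftMulMatrix_apply, Matrix.toLin_toMatrix] at h2
    exact LinearMap.congr_fun h2 v
  refine ⟨φ 1, ?_⟩
  apply (Matrix.toLin b b).injective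
  rw [Algebra.leftMulMatrix_apply, Matrix.toLin_toMatrix]
  ext y
  show φ y = φ 1 * y
  have := hφ y 1
  rw [mul_one] at this
  rw [this, mul_comm]

/-- an element annihilated by the minimal polynomial -/
theorem aeval_of_conj {x y : E} {g h : Matrix (Fin 3) (Fin 3) F} (hgh : h * g = 1) (hc : g * Mx b x * h = Mx b y) :
    aeval y (minpoly F x) = 0 := by
  have h1 : ∀ P : F[X], aeval (Mx b y) P = g * aeval (Mx b x) P * h := by
    have hgh' : g * h = 1 := mul_eq_one_comm.1 hgh
    intro P
    have h2 : ∀ n : ℕ, (Mx b y) ^ n = g * (Mx b x) ^ n * h := by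
      intro n
      induction n with
      | zero => rw [pow_zero, pow_zero, mul_one, hgh']
      | succ n ih =>
        rw [pow_succ, ih, ← hc, pow_succ]
        calc g * Mx b x ^ n * h * (g * Mx b x * h) = g * Mx b x ^ n * (h * g) * Mx b x * h := by noncomm_ring
          _ = _ := by rw [hgh]; noncomm_ring
    induction P using Polynomial.induction_on' with
    | add P Q hP hQ => rw [map_add, map_add, hP, hQ]; noncomm_ring
    | monomial n a =>
      rw [aeval_monomial, aeval_monomial, h2]
      rw [Algebra.algebraMap_eq_smul_one, smul_mul_assoc, one_mul, smul_mul_assoc, one_mul, Matrix.mul_smul,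
        Matrix.smul_mul]
  have h2 : aeval (Mx b x) (minpoly F x) = 0 := by
    rw [aeval_algHom_apply, minpoly.aeval, map_zero]
  have h3 : aeval (Mx b y) (minpoly F x) = 0 := by rw [h1, h2]; simp
  rw [aeval_algHom_apply] at h3
  exact Mx_injective b (h3.trans (map_zero _).symm)

end Alg

section Fin

variable {F : Type} [Field F] [Finite F] (p : ℕ) [Fact p.Prime] [CharP F p]

/-- the cubic extension -/
abbrev EE : Type := FiniteField.Extension F p 3

instance : Finite (EE (F := F) p) := Module.finite_of_finite F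

theorem card_EE : Nat.card (EE (F := F) p) = Nat.card F ^ 3 := FiniteField.natCard_extension F p 3

variable (b : Basis (Fin 3) F (EE (F := F) p))

/-- the algebra homomorphism into the matrices -/
theorem isConj_cases {x y : EE (F := F) p} {g h : Matrix (Fin 3) (Fin 3) F} (hgh : h * g = 1)
    (hc : g * Mx b x * h = Mx b y) : y = x ∨ y = x ^ Nat.card F ∨ y = x ^ (Nat.card F ^ 2) := by
  have h1 := aeval_of_conj b hgh hc
  obtain ⟨σ, hσ⟩ := minpoly.exists_algEquiv_of_root' (K := F) (L := EE (F := F) p)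
    (Algebra.IsAlgebraic.isAlgebraic x) h1
  obtain ⟨i, hi, rfl⟩ := FiniteField.Extension.exists_frob_pow_eq F p 3 σ
  rw [FiniteField.Extension.frob_iterate_apply] at hσ
  interval_cases i
  · left; rw [← hσ, pow_zero, pow_one]
  · right; left; rw [← hσ, pow_one]
  · right; right; exact hσ.symm

/-- conjugation by the Frobenius map, with determinant one -/
theorem exists_conj (x : EE (F := F) p) : ∃ g : SpecialLinearGroup (Fin 3) F,
    (g : Matrix (Fin 3) (Fin 3) F) * Mx b x = Mx b (x ^ Nat.card F) * (g : Matrix (Fin 3) (Fin 3) F) := by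
  let φ := FiniteField.Extension.frob F p 3
  let P : Matrix (Fin 3) (Fin 3) F := LinearMap.toMatrix b b φ.toLinearMap
  let P' : Matrix (Fin 3) (Fin 3) F := LinearMap.toMatrix b b φ.symm.toLinearMap
  have hPP : P * P' = 1 := by
    rw [← LinearMap.toMatrix_comp b b b]
    have : φ.toLinearMap ∘ₗ φ.symm.toLinearMap = LinearMap.id := by
      ext y
      show φ (φ.symm y) = y
      exact φ.apply_symm_apply y
    rw [this, LinearMap.toMatrix_id]
  have hdet : P.det ≠ 0 := by
    intro h
    have h1 := congrArg Matrix.det hPP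
    rw [Matrix.det_mul, h, zero_mul, Matrix.det_one] at h1
    exact zero_ne_one h1
  have hP : P * Mx b x = Mx b (x ^ Nat.card F) * P := by
    rw [Algebra.leftMulMatrix_apply, Algebra.leftMulMatrix_apply, ← LinearMap.toMatrix_comp b b b,
      ← LinearMap.toMatrix_comp b b b]
    congr 1
    ext y
    show φ (x * y) = x ^ Nat.card F * φ y
    rw [map_mul]
    congr 1
    exact FiniteField.Extension.frob_apply F p 3
  obtain ⟨e, he⟩ := FiniteField.norm_surjective F (EE (F := F) p) (P.det)⁻¹
  rw [Algebra.norm_eq_matrix_det b] at he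
  refine ⟨⟨Mx b e * P, by rw [Matrix.det_mul, he, inv_mul_cancel₀ hdet]⟩, ?_⟩
  show Mx b e * P * Mx b x = Mx b (x ^ Nat.card F) * (Mx b e * P)
  rw [mul_assoc, hP, ← mul_assoc, ← mul_assoc, ← map_mul, ← map_mul, mul_comm e]

/-- the units with `u ^ (q² + q + 1) = 1` have norm one -/
theorem det_Mx {u : (EE (F := F) p)ˣ} (hu : u ^ (Nat.card F ^ 2 + Nat.card F + 1) = 1) :
    (Mx b (u : EE (F := F) p)).det = 1 := by
  rw [← Algebra.norm_eq_matrix_det b]
  apply (algebraMap F (EE (F := F) p)).injective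
  rw [FiniteField.algebraMap_norm_eq_pow, map_one, card_EE]
  have hF : 1 < Nat.card F := Finite.one_lt_card
  rw [div_eq hF, ← Units.val_pow_eq_pow_val, hu, Units.val_one]

/-- the torus -/
noncomputable def tor (n : ℕ) (hn : n ∣ Nat.card F ^ 2 + Nat.card F + 1) :
    (powMonoidHom n : (EE (F := F) p)ˣ →* (EE (F := F) p)ˣ).ker →* SpecialLinearGroup (Fin 3) F where
  toFun u := ⟨Mx b ((u : (EE (F := F) p)ˣ) : EE (F := F) p), det_Mx p b (by
    obtain ⟨k, hk⟩ := hn
    have h1 : (u : (EE (F := F) p)ˣ) ^ n = 1 := u.2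
    rw [hk, pow_mul, h1, one_pow])⟩
  map_one' := Subtype.ext (by
    show Mx b ((1 : (EE (F := F) p)ˣ) : EE (F := F) p) = 1
    rw [Units.val_one, map_one])
  map_mul' u v := Subtype.ext (by
    show Mx b (((u * v : _) : (EE (F := F) p)ˣ) : EE (F := F) p) = _
    rw [Subgroup.coe_mul, Units.val_mul, map_mul]
    rfl)

theorem coe_tor (n : ℕ) (hn : n ∣ Nat.card F ^ 2 + Nat.card F + 1)
    (u : (powMonoidHom n : (EE (F := F) p)ˣ →* (EE (F := F) p)ˣ).ker) :
    ((tor p b n hn u : SpecialLinearGroup (Fin 3) F) : Matrix (Fin 3) (Fin 3) F) =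
      Mx b ((u : (EE (F := F) p)ˣ) : EE (F := F) p) := rfl

theorem tor_injective (n : ℕ) (hn : n ∣ Nat.card F ^ 2 + Nat.card F + 1) : Function.Injective (tor p b n hn) := by
  intro u v h
  apply Subtype.ext
  apply Units.ext
  apply Mx_injective b
  rw [← coe_tor p b n hn, ← coe_tor p b n hn, h]

theorem card_ker (n : ℕ) (hn : n ∣ Nat.card F ^ 2 + Nat.card F + 1) :
    Nat.card (powMonoidHom n : (EE (F := F) p)ˣ →* (EE (F := F) p)ˣ).ker = n := by
  rw [IsCyclic.card_powMonoidHom_ker, Nat.card_units, card_EE]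
  apply Nat.gcd_eq_right
  refine hn.trans ⟨Nat.card F - 1, ?_⟩
  have hF : 1 < Nat.card F := Finite.one_lt_card
  generalize Nat.card F = q at *
  obtain ⟨k, rfl⟩ : ∃ k, q = k + 2 := ⟨q - 2, by omega⟩
  have h2 : k + 2 - 1 = k + 1 := by omega
  rw [h2]
  have h3 : ((k + 2) ^ 2 + (k + 2) + 1) * (k + 1) + 1 = (k + 2) ^ 3 := by ring
  omega

include p in
/-- **The configuration in `SL₃(F)`.** -/
theorem exists_dat {N k : ℕ} (hq : Nat.card F = 3 * k + 1) (hN : N = 3 * k ^ 2 + 3 * k + 1) :
    ∃ (T : Subgroup (SpecialLinearGroup (Fin 3) F)) (z : SpecialLinearGroup (Fin 3) F), Dat T z N ∧ z ≠ 1 := by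
  have hF : 1 < Nat.card F := Finite.one_lt_card
  have hk : 0 < k := by omega
  have hn : Nat.card F ^ 2 + Nat.card F + 1 = 3 * N := by rw [hq, hN]; ring
  have hNn : N ∣ Nat.card F ^ 2 + Nat.card F + 1 := by rw [hn]; exact dvd_mul_left _ _
  obtain b : Basis (Fin 3) F (EE (F := F) p) :=
    (Module.finBasis F (EE (F := F) p)).reindex (finCongr (FiniteField.finrank_extension F p 3))
  -- nonscalar elements
  have hns : ∀ u : (EE (F := F) p)ˣ, u ^ N = 1 → u ≠ 1 → (u : EE (F := F) p) ∉ Set.range (algebraMap F (EE (F := F) p)) := by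
    rintro u hu hu1 ⟨a, ha⟩
    have ha0 : a ≠ 0 := by
      rintro rfl
      rw [map_zero] at ha
      exact u.ne_zero ha.symm
    have : Fintype F := Fintype.ofFinite F
    have h1 : a ^ (Nat.card F - 1) = 1 := by
      rw [Nat.card_eq_fintype_card]
      exact FiniteField.pow_card_sub_one_eq_one a ha0
    have h2 : u ^ (Nat.card F - 1) = 1 := by
      apply Units.ext
      rw [Units.val_pow_eq_pow_val, ← ha, ← map_pow, h1, map_one, Units.val_one]
    have h3 : u ^ Nat.gcd N (Nat.card F - 1) = 1 := pow_gcd_eq_one.2 ⟨hu, h2⟩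
    have h4 : Nat.gcd N (Nat.card F - 1) = 1 := by
      rw [hq, hN]
      have e : 3 * k ^ 2 + 3 * k + 1 = 1 + (3 * k + 1 - 1) * (k + 1) := by
        rw [Nat.add_sub_cancel]; ring
      rw [e]
      simp
    rw [h4, pow_one] at h3
    exact hu1 h3
  -- the Frobenius map on the torus
  have hfr : ∀ u : (EE (F := F) p)ˣ, u ^ N = 1 → u ≠ 1 → u ^ Nat.card F ≠ u ∧ u ^ (Nat.card F ^ 2) ≠ u ∧
      u ^ (Nat.card F ^ 2) ≠ u ^ Nat.card F := by
    intro u hu hu1
    have h0 : ∀ m : ℕ, Nat.Coprime N m → u ^ m = 1 → False := by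
      intro m hm h
      have h3 : u ^ Nat.gcd N m = 1 := pow_gcd_eq_one.2 ⟨hu, h⟩
      rw [hm, pow_one] at h3
      exact hu1 h3
    have h1 : u ^ (3 * k) ≠ 1 := by
      refine fun h => h0 _ ?_ h
      rw [hN]
      have e : 3 * k ^ 2 + 3 * k + 1 = 1 + (3 * k) * (k + 1) := by ring
      rw [e]
      simp
    have h2 : u ^ ((3 * k) * (3 * k + 2)) ≠ 1 := by
      -- 3 N = (3k)(3k+2) + (3k+3)... : use `u^(3N) = 1`
      intro h
      have h3 : u ^ (3 * k + 3) = 1 := by
        have h4 : u ^ (3 * N) = 1 := by rw [mul_comm, pow_mul, hu, one_pow]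
        have e : 3 * N = (3 * k) * (3 * k + 2) + (3 * k + 3) := by rw [hN]; ring
        rw [e, pow_add, h, one_mul] at h4
        exact h4
      refine h0 _ ?_ h3
      rw [hN]
      have e : 3 * k ^ 2 + 3 * k + 1 = 1 + (3 * k + 3) * k := by ring
      rw [e]
      simp
    refine ⟨?_, ?_, ?_⟩
    · rw [hq, pow_succ]
      intro h
      exact h1 (mul_eq_right.1 h)
    · intro h
      apply h2
      have e : Nat.card F ^ 2 = (3 * k) * (3 * k + 2) + 1 := by rw [hq]; ring
      rw [e, pow_succ] at h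
      exact mul_eq_right.1 h
    · intro h
      have e : Nat.card F ^ 2 = Nat.card F * Nat.card F := pow_two _
      rw [e, pow_mul] at h
      have h5 : u ^ Nat.card F = (u ^ Nat.card F) ^ (3 * k) * u ^ Nat.card F := by
        rw [← pow_succ, ← hq, h]
      have h6 : (u ^ Nat.card F) ^ (3 * k) = 1 := (mul_eq_right.1 h5.symm)
      have h7 : u ^ (Nat.card F * (3 * k)) = 1 := by rw [pow_mul, h6]
      refine h0 _ ?_ h7
      rw [hN, hq]
      apply Nat.Coprime.mul_right
      · have e : 3 * k ^ 2 + 3 * k + 1 = (3 * k + 1) + (3 * k ^ 2) := by ring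
        rw [e, Nat.coprime_self_add_left]
        apply Nat.Coprime.mul_left
        · rw [Nat.coprime_comm]; simp
        · apply Nat.Coprime.pow_left
          rw [Nat.coprime_comm]; simp
      · have e : 3 * k ^ 2 + 3 * k + 1 = 1 + (3 * k) * (k + 1) := by ring
        rw [e]
        simp
  obtain ⟨ζ, hζ3, hζ1⟩ : ∃ ζ : F, ζ ^ 3 = 1 ∧ ζ ≠ 1 := by
    have h3 : 3 ∣ Nat.card Fˣ := by
      rw [Nat.card_units, hq, Nat.add_sub_cancel]
      exact dvd_mul_right _ _
    have : Fact (Nat.Prime 3) := ⟨Nat.prime_three⟩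
    obtain ⟨ζ, hζ⟩ := exists_prime_orderOf_dvd_card' 3 h3
    refine ⟨ζ, ?_, ?_⟩
    · have h4 := pow_orderOf_eq_one ζ
      rw [hζ] at h4
      rw [← Units.val_pow_eq_pow_val, h4, Units.val_one]
    · intro h
      have h4 : ζ = 1 := Units.ext h
      rw [h4, orderOf_one] at hζ
      norm_num at hζ
  let z : SpecialLinearGroup (Fin 3) F := ⟨Matrix.scalar (Fin 3) ζ, by
    rw [Matrix.scalar_apply, Matrix.det_diagonal, Fin.prod_univ_three, ← hζ3]; ring⟩
  have hzc : ∀ A : Matrix (Fin 3) (Fin 3) F, A * (z : Matrix (Fin 3) (Fin 3) F) = (z : Matrix (Fin 3) (Fin 3) F) * A :=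
    fun A => (Matrix.scalar_commute ζ (fun r' => mul_comm _ _) A).symm
  let T := (tor p b N hNn).range
  have hmem : ∀ u : (EE (F := F) p)ˣ, u ^ N = 1 → ∃ t : SpecialLinearGroup (Fin 3) F, t ∈ T ∧
      (t : Matrix (Fin 3) (Fin 3) F) = Mx b (u : EE (F := F) p) := fun u hu => ⟨_, ⟨⟨u, hu⟩, rfl⟩, rfl⟩
  refine ⟨T, z, ⟨?_, ?_, ?_, ?_, ?_, ?_⟩, ?_⟩
  · rw [← card_ker (F := F) p N hNn]
    exact (Nat.card_congr (MonoidHom.ofInjective (tor_injective p b N hNn)).toEquiv).symm
  · intro g
    exact Subtype.ext (hzc _)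
  · apply Subtype.ext
    show ((z : Matrix (Fin 3) (Fin 3) F)) ^ 3 = 1
    show (Matrix.scalar (Fin 3) ζ) ^ 3 = 1
    rw [← map_pow, hζ3, map_one]
  · rw [hN]; omega
  · rintro _ ⟨u, rfl⟩ ht1
    have hu : (u : (EE (F := F) p)ˣ) ^ N = 1 := u.2
    have hu1 : (u : (EE (F := F) p)ˣ) ≠ 1 := by
      intro h
      apply ht1
      have : u = 1 := Subtype.ext h
      rw [this, map_one]
    have e : Subgroup.centralizer ({tor p b N hNn u} : Set (SpecialLinearGroup (Fin 3) F)) =
        (tor p b (3 * N) (by rw [hn])).range := by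
      ext g
      rw [Subgroup.mem_centralizer_singleton_iff]
      constructor
      · intro h
        have h1 := congrArg Subtype.val h
        obtain ⟨v, hv⟩ := mem_of_comm b (hns _ hu hu1) (g := (g : Matrix (Fin 3) (Fin 3) F)) h1
        have hnorm : Algebra.norm F v = 1 := by
          rw [Algebra.norm_eq_matrix_det b, ← hv, g.2]
        have hv0 : v ≠ 0 := by
          rintro rfl
          rw [Algebra.norm_zero] at hnorm
          exact zero_ne_one hnorm
        have hv3 : (Units.mk0 v hv0) ^ (3 * N) = 1 := by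
          apply Units.ext
          rw [Units.val_pow_eq_pow_val, Units.val_mk0, Units.val_one]
          have h2 := FiniteField.algebraMap_norm_eq_pow (K := F) (K' := EE (F := F) p) (x := v)
          rw [hnorm, map_one, card_EE] at h2
          rw [div_eq hF, hn] at h2
          exact h2.symm
        exact ⟨⟨Units.mk0 v hv0, hv3⟩, Subtype.ext hv.symm⟩
      · rintro ⟨v, rfl⟩
        apply Subtype.ext
        show Mx b _ * Mx b _ = Mx b _ * Mx b _
        rw [← map_mul, ← map_mul, mul_comm]
    rw [e, ← Nat.card_congr (MonoidHom.ofInjective (tor_injective p b (3 * N) (by rw [hn]))).toEquiv,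
      card_ker p (3 * N) (by rw [hn])]
  · rintro _ ⟨u, rfl⟩ ht1
    have hu : (u : (EE (F := F) p)ˣ) ^ N = 1 := u.2
    have hu1 : (u : (EE (F := F) p)ˣ) ≠ 1 := by
      intro h
      apply ht1
      have : u = 1 := Subtype.ext h
      rw [this, map_one]
    obtain ⟨h12, h13, h23⟩ := hfr _ hu hu1
    set f := tor p b N hNn with hf
    -- conjugates
    have hc1 : ∀ v : (powMonoidHom N : (EE (F := F) p)ˣ →* (EE (F := F) p)ˣ).ker, IsConj (f v) (f (v ^ Nat.card F)) := by
      intro v
      obtain ⟨g, hg⟩ := exists_conj p b ((v : (EE (F := F) p)ˣ) : EE (F := F) p)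
      rw [isConj_iff]
      refine ⟨g, ?_⟩
      rw [mul_inv_eq_iff_eq_mul]
      apply Subtype.ext
      show (g : Matrix (Fin 3) (Fin 3) F) * Mx b _ = Mx b _ * (g : Matrix (Fin 3) (Fin 3) F)
      rw [hg]
      rfl
    have hset : {s : SpecialLinearGroup (Fin 3) F | s ∈ T ∧ IsConj (f u) s} =
        {f u, f (u ^ Nat.card F), f (u ^ (Nat.card F ^ 2))} := by
      ext s
      simp only [Set.mem_ofPred_eq, Set.mem_insert_iff, Set.mem_singleton_iff]
      constructor
      · rintro ⟨⟨v, rfl⟩, hc⟩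
        obtain ⟨g, hg⟩ := isConj_iff.1 hc
        have h1 := congrArg Subtype.val hg
        have h2 : ((g⁻¹ : SpecialLinearGroup (Fin 3) F) : Matrix (Fin 3) (Fin 3) F) * (g : Matrix (Fin 3) (Fin 3) F) = 1 :=
          congrArg Subtype.val (inv_mul_cancel g)
        rcases isConj_cases p b h2 h1 with h | h | h
        · left; congr 1; exact Subtype.ext (Units.ext h)
        · right; left; congr 1; exact Subtype.ext (Units.ext h)
        · right; right; congr 1; exact Subtype.ext (Units.ext h)
      · rintro (rfl | rfl | rfl)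
        · exact ⟨⟨u, rfl⟩, IsConj.refl _⟩
        · exact ⟨⟨_, rfl⟩, hc1 u⟩
        · refine ⟨⟨_, rfl⟩, (hc1 u).trans ?_⟩
          rw [pow_two, pow_mul]
          exact hc1 _
    have hinj := tor_injective p b N hNn
    have hcard : Set.ncard {s : SpecialLinearGroup (Fin 3) F | s ∈ T ∧ IsConj (f u) s} = 3 := by
      rw [hset, Set.ncard_eq_three]
      refine ⟨_, _, _, ?_, ?_, ?_, rfl⟩
      · intro h
        exact h12 (congrArg Subtype.val (hinj h)).symm
      · intro h
        exact h13 (congrArg Subtype.val (hinj h)).symm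
      · intro h
        exact h23 (congrArg Subtype.val (hinj h)).symm
    exact hcard
  · intro h
    apply hζ1
    have h1 := congrArg (fun g : SpecialLinearGroup (Fin 3) F => (g : Matrix (Fin 3) (Fin 3) F) 0 0) h
    simpa [z] using h1

end Fin

end Cfsg.Agent.H142.T3
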