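import Mathlib
import Cfsg.Agent.H142.T3.Col
import Cfsg.Agent.H142.T3.Torus
import Cfsg.Agent.H142.T3.Arith
import Cfsg.Agent.LieClassical.SLGen

/-!
# The degree `(q - 1)² (q + 1) / 3` of `SL₃(q)` and `PSL₃(q)`, `q ≡ 1 mod 3` (helper142, S4855)
-/

set_option autoImplicit false
set_option linter.unusedSectionVars false

namespace Cfsg.Agent.H142.T3

open Cfsg Matrix Cfsg.Agent.Characters Cfsg.Agent.H686.CharKit Cfsg.Agent.H691.T3
open scoped Classical

variable {F : Type} [Field F] [Fintype F]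

theorem exists_k (h3 : 3 ∣ Fintype.card F - 1) : ∃ k : ℕ, 0 < k ∧ Fintype.card F = 3 * k + 1 := by
  have h1 : 1 < Fintype.card F := Fintype.one_lt_card
  obtain ⟨k, hk⟩ := h3
  exact ⟨k, by omega, by omega⟩

/-- the two alternatives, over every central character -/
theorem exists_counts (h : charDegrees (SpecialLinearGroup (Fin 3) F) ⊆ DT (Fintype.card F)) {k : ℕ} (hk : 0 < k)
    (hq : Fintype.card F = 3 * k + 1) [Fintype (IrrCharacter (SpecialLinearGroup (Fin 3) F))] :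
    ∃ z : SpecialLinearGroup (Fin 3) F, z ≠ 1 ∧ z ^ 3 = 1 ∧ (∀ g, g * z = z * g) ∧ ∀ ω : ℂ, ω ^ 3 = 1 →
      ((∃ χ ∈ Ix z ω, charDegree (χ : SpecialLinearGroup (Fin 3) F → ℂ) = 1) ∨
        ∃ χ ∈ Ix z ω, charDegree (χ : SpecialLinearGroup (Fin 3) F → ℂ) = 9 * k ^ 3 + 6 * k ^ 2) ∧
      ¬ ((∃ χ ∈ Ix z ω, charDegree (χ : SpecialLinearGroup (Fin 3) F → ℂ) = 1) ∧
        ∃ χ ∈ Ix z ω, charDegree (χ : SpecialLinearGroup (Fin 3) F → ℂ) = 9 * k ^ 3 + 6 * k ^ 2) := by
  obtain ⟨p, hp⟩ := CharP.exists F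
  have hp' : Fact p.Prime := ⟨CharP.char_is_prime F p⟩
  obtain ⟨T, z, D, hz⟩ := exists_dat (F := F) p (by rw [Nat.card_eq_fintype_card]; exact hq) (rfl : 3 * k ^ 2 + 3 * k + 1 = _)
  refine ⟨z, hz, D.z3, D.central, fun ω hω => ?_⟩
  obtain ⟨m, hm, h2, h1⟩ := D.main hz hω
  refine counts (Ix z ω) (fun χ => charDegree (χ : SpecialLinearGroup (Fin 3) F → ℂ)) m hk ?_ ?_ ?_ h1
  · intro χ _
    rw [← hq]
    exact h ⟨χ, rfl⟩
  · intro χ _
    have := hm χ
    push_cast at this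
    exact this
  · rw [h2]
    push_cast
    ring

theorem sl3_third (h : charDegrees (SpecialLinearGroup (Fin 3) F) ⊆ DT (Fintype.card F)) (h3 : 3 ∣ Fintype.card F - 1)
    {d : ℕ} (hd : 3 * d = (Fintype.card F - 1) ^ 2 * (Fintype.card F + 1)) :
    d ∈ charDegrees (SpecialLinearGroup (Fin 3) F) := by
  obtain ⟨k, hk, hq⟩ := exists_k h3
  have hfin : Finite (IrrCharacter (SpecialLinearGroup (Fin 3) F)) := Core.finite_irr
  have : Fintype (IrrCharacter (SpecialLinearGroup (Fin 3) F)) := Fintype.ofFinite _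
  obtain ⟨z, hz, hz3, hzc, hall⟩ := exists_counts h hk hq
  have hω : (Complex.exp (2 * Real.pi * Complex.I / 3)) ^ 3 = 1 := by
    have := (Complex.isPrimitiveRoot_exp 3 (by norm_num)).pow_eq_one
    simpa using this
  have hω1 : Complex.exp (2 * Real.pi * Complex.I / 3) ≠ 1 := by
    have := (Complex.isPrimitiveRoot_exp 3 (by norm_num)).ne_one (by norm_num)
    simpa using this
  obtain ⟨h4, -⟩ := hall _ hω
  have hd0 : d = 9 * k ^ 3 + 6 * k ^ 2 := by
    rw [hq] at hd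
    have h5 : 3 * k + 1 - 1 = 3 * k := by omega
    rw [h5] at hd
    have h6 : 3 * d = 3 * (9 * k ^ 3 + 6 * k ^ 2) := by rw [hd]; ring
    omega
  rcases h4 with ⟨χ, hχ, h5⟩ | ⟨χ, -, h5⟩
  · exfalso
    rw [mem_Ix] at hχ
    have h6 : (χ : SpecialLinearGroup (Fin 3) F → ℂ) 1 = 1 := by rw [← charDegree_irr, h5, Nat.cast_one]
    obtain ⟨f, hf⟩ := Characters.Linear.exists_hom_of_isIrrCharacter χ.2 h6
    have h7 : commutator (SpecialLinearGroup (Fin 3) F) = ⊤ := LieClassical.SLGen.commutator_eq_top (by simp)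
    have h8 : f z = 1 := by
      have : commutator (SpecialLinearGroup (Fin 3) F) ≤ f.ker := Abelianization.commutator_subset_ker f
      exact this (h7 ▸ Subgroup.mem_top z)
    rw [h6, mul_one, hf] at hχ
    apply hω1
    rw [← hχ]
    show ((f z : ℂˣ) : ℂ) = 1
    rw [h8, Units.val_one]
  · exact ⟨χ, by rw [h5, hd0]⟩

theorem psl3_third (h : charDegrees (SpecialLinearGroup (Fin 3) F) ⊆ DT (Fintype.card F)) (h3 : 3 ∣ Fintype.card F - 1)
    {d : ℕ} (hd : d ∈ charDegrees (ProjectiveSpecialLinearGroup (Fin 3) F)) :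
    3 * d ≠ (Fintype.card F - 1) ^ 2 * (Fintype.card F + 1) := by
  intro hd3
  obtain ⟨k, hk, hq⟩ := exists_k h3
  have hfin : Finite (IrrCharacter (SpecialLinearGroup (Fin 3) F)) := Core.finite_irr
  have : Fintype (IrrCharacter (SpecialLinearGroup (Fin 3) F)) := Fintype.ofFinite _
  obtain ⟨z, hz, hz3, hzc, hall⟩ := exists_counts h hk hq
  obtain ⟨-, h4⟩ := hall 1 (one_pow 3)
  have hd0 : d = 9 * k ^ 3 + 6 * k ^ 2 := by
    rw [hq] at hd3
    have h5 : 3 * k + 1 - 1 = 3 * k := by omega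
    rw [h5] at hd3
    have h6 : 3 * d = 3 * (9 * k ^ 3 + 6 * k ^ 2) := by rw [hd3]; ring
    omega
  apply h4
  constructor
  · refine ⟨⟨1, Core.isIrr_one⟩, ?_, ?_⟩
    · rw [mem_Ix]
      simp
    · have := charDegree_irr (⟨1, Core.isIrr_one⟩ : IrrCharacter (SpecialLinearGroup (Fin 3) F))
      have h8 : (charDegree ((⟨1, Core.isIrr_one⟩ : IrrCharacter (SpecialLinearGroup (Fin 3) F)) :
          SpecialLinearGroup (Fin 3) F → ℂ) : ℂ) = 1 := this
      exact_mod_cast h8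
  · obtain ⟨ψ, hψ⟩ := hd
    have hzmem : z ∈ Subgroup.center (SpecialLinearGroup (Fin 3) F) :=
      Subgroup.mem_center_iff.2 hzc
    obtain ⟨χ, hχ⟩ : ∃ χ : IrrCharacter (SpecialLinearGroup (Fin 3) F),
        χ = infl (Subgroup.center (SpecialLinearGroup (Fin 3) F)) ψ := ⟨_, rfl⟩
    have h8 : ∀ g, (χ : SpecialLinearGroup (Fin 3) F → ℂ) g =
        (ψ : ProjectiveSpecialLinearGroup (Fin 3) F → ℂ) (QuotientGroup.mk' (Subgroup.center _) g) := by
      intro g; rw [hχ]; rfl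
    refine ⟨χ, ?_, ?_⟩
    · have h9 : QuotientGroup.mk' (Subgroup.center (SpecialLinearGroup (Fin 3) F)) z = 1 :=
        (QuotientGroup.eq_one_iff z).2 hzmem
      rw [mem_Ix, one_mul, h8, h8, h9, map_one]
    · rw [← hd0, ← hψ]
      have e1 := charDegree_irr χ
      have e2 := charDegree_irr ψ
      rw [h8, map_one] at e1
      have e3 := e1.trans e2.symm
      exact_mod_cast e3

end Cfsg.Agent.H142.T3
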